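import Cfsg.Agent.H30.IMFi24
import Cfsg.Agent.H755.S8.KL
import Cfsg.Agent.H92.KTools

/-!
# A bound of the class number of `Fi₂₄'` (helper217)

`k ≤ |C(x)| + |Fi₂₄'| / 29²` for an element `x` of order 29.
-/

set_option autoImplicit false

namespace Cfsg.Agent.H217.S8.KFi24

open Cfsg

universe v

theorem fin : Finite Spor.Fi24' := Nat.finite_of_card_ne_zero (by
  rw [Cfsg.Agent.R08.FiTwentyFour.card_commutator]; norm_num)

theorem card_classes : Nat.card (ConjClasses Spor.Fi24') ≤ 2 ^ 71 := by
  have := fin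
  obtain ⟨x, -, hx, hC, -⟩ := Cfsg.Agent.H30.IMFi24.exists_x
  have h := Cfsg.Agent.H755.S8.card_conj_le (T := Spor.Fi24') {29} (by
      intro p hp
      rw [Finset.mem_singleton] at hp
      subst hp
      norm_num) (fun _ => 29) (by
      intro p hp
      rw [Finset.mem_singleton] at hp
      subst hp
      exact ⟨x, hx, hC.le⟩)
  have hcard : Nat.card Spor.Fi24' = 1255205709190661721292800 := Cfsg.Agent.R08.FiTwentyFour.card_commutator
  rw [Finset.sum_singleton, Finset.prod_singleton, hcard] at h
  exact h.trans (by norm_num)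

theorem KB {X : Type v} [Group X] [Finite X] (h : Spor.IsoFi24' X) : Nat.card (ConjClasses X) ≤ 2 ^ 71 := by
  obtain ⟨e⟩ := h
  rw [Cfsg.Agent.H92.KTools.card_classes_congr e]
  exact card_classes

end Cfsg.Agent.H217.S8.KFi24
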